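import Cfsg.Agent.H282.SK.Def
import Cfsg.Agent.LThreeMB.Quo

/-!
# S3010 (Sidki pairs): tools for the rows with `G = K` (helper877)

* `Dead1 v` : `v` inverts an element `x` of odd order with `|C(x)|` odd, or with `C(v) ∩ C(x)` isomorphic to a simple
  group which is not a 2-group;
* `deadS_of` : all automorphisms of `X` are inner and all involutions of `X` are dead ⟹ the row `X` is dead;
* `exists_split` : a real element `x` of odd order such that `C(x) / ⟨x⟩` is complete is inverted by an involution `s` with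
  `C(s) ∩ C(x) ≅ C(x) / ⟨x⟩`.
-/

set_option autoImplicit false

open Subgroup Cfsg

namespace Cfsg.Agent.H877.SK

open Cfsg.Agent.H282.SK
open Cfsg.Agent.LThreeMB (XX Zx mk exists_mk mk_eq_mk mk_mul)

universe u v w

/-- `v` inverts an element of odd order whose centralizer has odd order, or commutes with no 2-element. -/
def Dead1 {G : Type u} [Group G] (a : G) : Prop :=
  ∃ x : G, Odd (orderOf x) ∧ a * x * a⁻¹ = x⁻¹ ∧ (Odd (Nat.card (centralizer ({x} : Set G))) ∨
    ∃ (T : Type) (_ : Group T), IsSimpleGroup T ∧ ¬ IsPGroup 2 T ∧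
      Nonempty (↥(centralizer ({a} : Set G) ⊓ centralizer ({x} : Set G)) ≃* T))

section gen

variable {G : Type u} [Group G]

theorem map_cent {H : Type v} [Group H] (e : G ≃* H) (x : G) :
    (centralizer ({x} : Set G)).map e.toMonoidHom = centralizer ({e x} : Set H) := by
  ext g
  rw [mem_map, mem_centralizer_singleton_iff]
  constructor
  · rintro ⟨c, hc, rfl⟩
    have := mem_centralizer_singleton_iff.1 hc
    show e c * e x = e x * e c
    rw [← map_mul, this, map_mul]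
  · intro hg
    refine ⟨e.symm g, mem_centralizer_singleton_iff.2 (e.injective ?_), e.apply_symm_apply g⟩
    rw [map_mul, map_mul, e.apply_symm_apply, hg]

theorem Dead1.map {H : Type v} [Group H] (e : G ≃* H) {a : G} (h : Dead1 a) : Dead1 (e a) := by
  obtain ⟨x, hx, hi, h⟩ := h
  refine ⟨e x, by rwa [MulEquiv.orderOf_eq], by rw [← map_inv, ← map_mul, ← map_mul, hi, map_inv], ?_⟩
  rcases h with h | ⟨T, _, hT, hT2, ⟨f⟩⟩
  · left
    rw [← map_cent]
    rwa [card_map_of_injective (f := e.toMonoidHom) e.injective]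
  · right
    refine ⟨T, inferInstance, hT, hT2, ?_⟩
    rw [← map_cent, ← map_cent, ← map_inf _ _ _ e.injective]
    exact ⟨(equivMapOfInjective _ e.toMonoidHom e.injective).symm.trans f⟩

theorem Dead1.conj {a : G} (h : Dead1 a) (g : G) : Dead1 (g * a * g⁻¹) := h.map (MulAut.conj g)

variable [Finite G] {V K : Subgroup G}

/-- The core of a simple group which is not a 2-group. -/
theorem pCore_eq_bot_of_simple {T : Type v} [Group T] [Finite T] [hT : IsSimpleGroup T] (hT2 : ¬ IsPGroup 2 T) :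
    pCore 2 T = ⊥ := by
  rcases hT.eq_bot_or_eq_top_of_normal (pCore 2 T) (Lib.Cores.pCore_normal 2) with h | h
  · exact h
  · exfalso
    apply hT2
    have h1 : IsPGroup 2 (pCore 2 T) := Lib.Cores.pCore_isPGroup 2
    rw [h] at h1
    exact h1.of_equiv Subgroup.topEquiv

theorem O2_eq_bot {H : Subgroup G} {T : Type v} [Group T] (hT : IsSimpleGroup T) (hT2 : ¬ IsPGroup 2 T)
    (e : Nonempty (H ≃* T)) : O2 H = ⊥ := by
  obtain ⟨e⟩ := e
  have : Nontrivial H := e.symm.injective.nontrivial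
  have : IsSimpleGroup H := IsSimpleGroup.isSimpleGroup_of_surjective e.symm.toMonoidHom e.symm.surjective
  have h1 : pCore 2 H = ⊥ := pCore_eq_bot_of_simple fun h => hT2 (h.of_equiv e)
  rw [O2, h1, Subgroup.map_bot]

/-- **No dead element in `V`.** -/
theorem not_dead {h : Cx V K} {a : G} (ha : a ∈ V) (ha1 : a ≠ 1) : ¬ Dead1 a := by
  rintro ⟨x, hx, hi, hd⟩
  obtain ⟨w, hw, hw1, hwx, hwO⟩ := h.t1 ha ha1 hx hi
  rcases hd with hd | ⟨T, _, hT, hT2, he⟩
  · have h1 : w ∈ centralizer ({x} : Set G) := mem_centralizer_singleton_iff.2 hwx.eq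
    have h2 : orderOf w ∣ 2 := orderOf_dvd_of_pow_eq_one (by rw [pow_two, h.sq hw])
    have h3 := orderOf_dvd_natCard (⟨w, h1⟩ : centralizer ({x} : Set G))
    rw [Subgroup.orderOf_mk] at h3
    rcases (Nat.dvd_prime Nat.prime_two).1 h2 with h4 | h4
    · exact hw1 (orderOf_eq_one_iff.1 h4)
    · rw [h4] at h3
      exact (Nat.not_even_iff_odd.2 hd) (even_iff_two_dvd.2 h3)
  · rw [O2_eq_bot hT hT2 he, mem_bot] at hwO
    exact hw1 hwO

/-- All automorphisms of `K` are inner: `G = K`. -/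
theorem eq_top_of_inner (h : Cx V K) (hin : ∀ α : MulAut K, ∃ k : K, α = MulAut.conj k) : K = ⊤ := by
  have := h.norm
  rw [eq_top_iff]
  intro g _
  obtain ⟨k, hk⟩ := hin (MulAut.conjNormal g)
  have h1 : (k : G)⁻¹ * g = 1 := by
    apply h.eq_one_of_comm
    intro y hy
    have h2 := congrArg (fun α : MulAut K => ((α ⟨y, hy⟩ : K) : G)) hk
    simp only [MulAut.conjNormal_apply, MulAut.conj_apply, Subgroup.coe_mul, InvMemClass.coe_inv] at h2
    have h3 : g * y = (k : G) * y * (k : G)⁻¹ * g := by rw [← h2]; group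
    calc (k : G)⁻¹ * g * y = (k : G)⁻¹ * (g * y) := by group
      _ = (k : G)⁻¹ * ((k : G) * y * (k : G)⁻¹ * g) := by rw [h3]
      _ = y * ((k : G)⁻¹ * g) := by group
  rw [inv_mul_eq_one] at h1
  rw [← h1]
  exact k.2

theorem inner_congr {X : Type v} {Y : Type w} [Group X] [Group Y] (e : X ≃* Y)
    (h : ∀ α : MulAut Y, ∃ g : Y, α = MulAut.conj g) (α : MulAut X) : ∃ g : X, α = MulAut.conj g := by
  obtain ⟨g, hg⟩ := h (e.symm.trans (α.trans e))
  refine ⟨e.symm g, ?_⟩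
  ext x
  have h1 : e (α (e.symm (e x))) = g * e x * g⁻¹ := by
    have := congrArg (fun t : MulAut _ => t (e x)) hg
    exact this
  rw [e.symm_apply_apply] at h1
  rw [MulAut.conj_apply]
  apply e.injective
  rw [h1, map_mul, map_mul, map_inv, e.apply_symm_apply]

end gen

/-- **The criterion for a row without outer automorphisms.** -/
theorem deadS_of {X : Type v} [Group X] (hin : ∀ α : MulAut X, ∃ k : X, α = MulAut.conj k)
    (hd : ∀ a : X, a * a = 1 → a ≠ 1 → Dead1 a) : DeadS.{u} (fun K _ => Nonempty (K ≃* X)) := by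
  intro G _ _ V K h he
  obtain ⟨e⟩ := he
  have hK := eq_top_of_inner h (inner_congr e hin)
  let f : G ≃* X := (Subgroup.topEquiv.symm.trans (MulEquiv.subgroupCongr hK.symm)).trans e
  obtain ⟨a, ha, ha1⟩ : ∃ a ∈ V, a ≠ 1 := by
    by_contra hcon
    push Not at hcon
    exact h.V_ne_bot ((Subgroup.eq_bot_iff_forall V).2 hcon)
  refine not_dead (h := h) ha ha1 ?_
  have h1 := (hd (f a) (by rw [← map_mul, h.sq ha, map_one]) (fun h' => ha1 (f.injective (by rw [h', map_one])))).map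
    f.symm
  rwa [f.symm_apply_apply] at h1

/-! ### Real elements with a complete quotient -/

section split

variable {G : Type u} [Group G]

theorem comm_conj {x n c : G} (hn : n * x * n⁻¹ = x⁻¹) (hc : c * x = x * c) : (n * c * n⁻¹) * x = x * (n * c * n⁻¹) := by
  have h1 : x = n * x⁻¹ * n⁻¹ := by
    calc x = (x⁻¹)⁻¹ := (inv_inv x).symm
      _ = (n * x * n⁻¹)⁻¹ := by rw [hn]
      _ = n * x⁻¹ * n⁻¹ := by group
  have h2 : c * x⁻¹ = x⁻¹ * c := ((show Commute c x from hc).inv_right).eq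
  calc (n * c * n⁻¹) * x = (n * c * n⁻¹) * (n * x⁻¹ * n⁻¹) := by rw [← h1]
    _ = n * (c * x⁻¹) * n⁻¹ := by group
    _ = n * (x⁻¹ * c) * n⁻¹ := by rw [h2]
    _ = (n * x⁻¹ * n⁻¹) * (n * c * n⁻¹) := by group
    _ = x * (n * c * n⁻¹) := by rw [← h1]

theorem inv_conj {x n : G} (hn : n * x * n⁻¹ = x⁻¹) : n⁻¹ * x * n⁻¹⁻¹ = x⁻¹ := by
  have h1 : x = n * x⁻¹ * n⁻¹ := by
    calc x = (x⁻¹)⁻¹ := (inv_inv x).symm
      _ = (n * x * n⁻¹)⁻¹ := by rw [hn]
      _ = n * x⁻¹ * n⁻¹ := by group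
  calc n⁻¹ * x * n⁻¹⁻¹ = n⁻¹ * (n * x⁻¹ * n⁻¹) * n⁻¹⁻¹ := by rw [← h1]
    _ = x⁻¹ := by group

/-- The automorphism of `C(x)` induced by an element inverting `x`. -/
def autC {x n : G} (hn : n * x * n⁻¹ = x⁻¹) : ↥(centralizer ({x} : Set G)) ≃* ↥(centralizer ({x} : Set G)) where
  toFun c := ⟨n * c * n⁻¹, mem_centralizer_singleton_iff.2 (comm_conj hn (mem_centralizer_singleton_iff.1 c.2))⟩
  invFun c := ⟨n⁻¹ * c * n⁻¹⁻¹, mem_centralizer_singleton_iff.2
    (comm_conj (inv_conj hn) (mem_centralizer_singleton_iff.1 c.2))⟩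
  left_inv c := Subtype.ext (by show n⁻¹ * (n * (c : G) * n⁻¹) * n⁻¹⁻¹ = c; group)
  right_inv c := Subtype.ext (by show n * (n⁻¹ * (c : G) * n⁻¹⁻¹) * n⁻¹ = c; group)
  map_mul' a b := Subtype.ext (by
    show n * ((a : G) * b) * n⁻¹ = n * a * n⁻¹ * (n * b * n⁻¹)
    group)

/-- The induced automorphism of `C(x) / ⟨x⟩`. -/
noncomputable def autX {x n : G} (hn : n * x * n⁻¹ = x⁻¹) : MulAut (XX x) :=
  QuotientGroup.congr (Zx x) (Zx x) (autC hn) (by
    have h1 : (autC hn : ↥(centralizer ({x} : Set G)) →* ↥(centralizer ({x} : Set G))) (LThreeMB.self x) =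
        (LThreeMB.self x)⁻¹ := Subtype.ext hn
    rw [Zx, MonoidHom.map_zpowers, h1, zpowers_inv])

theorem autX_mk {x n c : G} (hn : n * x * n⁻¹ = x⁻¹) (hc : c * x = x * c) :
    autX hn (mk x hc) = mk x (comm_conj hn hc) := rfl

/-- **A real element of odd order with a complete quotient.** -/
theorem exists_split {x n : G} (hx : Odd (orderOf x)) (hx1 : x ≠ 1) (hn : n * x * n⁻¹ = x⁻¹)
    (hin : ∀ α : MulAut (XX x), ∃ y : XX x, α = MulAut.conj y) (hcen : center (XX x) = ⊥) :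
    ∃ s : G, s * s = 1 ∧ s ≠ 1 ∧ s * x * s⁻¹ = x⁻¹ ∧
      Nonempty (↥(centralizer ({s} : Set G) ⊓ centralizer ({x} : Set G)) ≃* XX x) := by
  obtain ⟨y, hy⟩ := hin (autX hn)
  obtain ⟨c, hc, rfl⟩ := exists_mk y
  set s := c⁻¹ * n with hs
  have hcx : c⁻¹ * x⁻¹ * c = x⁻¹ := by
    have h1 : Commute c x⁻¹ := (show Commute c x from hc).inv_right
    rw [mul_assoc, ← h1.eq]
    group
  have hsx : s * x * s⁻¹ = x⁻¹ := by
    calc s * x * s⁻¹ = c⁻¹ * (n * x * n⁻¹) * c := by rw [hs]; group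
      _ = x⁻¹ := by rw [hn, hcx]
  -- `s` acts trivially on `C(x) / ⟨x⟩`
  have hact : ∀ d : G, d * x = x * d → ∃ i : ℤ, s * d * s⁻¹ = d * x ^ i := by
    intro d hd
    have h1 := congrArg (fun α : MulAut (XX x) => α (mk x hd)) hy
    simp only [MulAut.conj_apply] at h1
    rw [autX_mk hn hd] at h1
    have hcc : c⁻¹ * x = x * c⁻¹ := ((show Commute c x from hc).inv_left).eq
    have h2 : mk x hc * mk x hd * (mk x hc)⁻¹ = mk x (LThreeMB.conj_comm hc hd) := rfl
    rw [h2] at h1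
    obtain ⟨i, hi⟩ := (mk_eq_mk _ _).1 h1.symm
    refine ⟨i, ?_⟩
    have h3 : Commute c (x ^ i) := (show Commute c x from hc).zpow_right i
    calc s * d * s⁻¹ = c⁻¹ * (n * d * n⁻¹) * c := by rw [hs]; group
      _ = c⁻¹ * (c * d * c⁻¹ * x ^ i) * c := by rw [hi]
      _ = d * c⁻¹ * (x ^ i * c) := by group
      _ = d * c⁻¹ * (c * x ^ i) := by rw [h3.eq]
      _ = d * x ^ i := by group
  have hinvpow : ∀ i : ℤ, s * x ^ i * s⁻¹ = x ^ (-i) := by
    intro i
    rw [← conj_zpow, hsx, inv_zpow, zpow_neg]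
  have hodd : ∀ i : ℤ, x ^ i = x ^ (-i) → x ^ i = 1 := by
    intro i hi
    have h1 : x ^ (2 * i) = 1 := by
      rw [two_mul, zpow_add]
      nth_rewrite 1 [hi]
      rw [← zpow_add, neg_add_cancel, zpow_zero]
    rw [← orderOf_dvd_iff_zpow_eq_one] at h1 ⊢
    have h2 : IsCoprime (orderOf x : ℤ) 2 := by
      rw [Int.isCoprime_iff_gcd_eq_one]
      have := (Nat.coprime_two_right (n := orderOf x)).2 hx
      exact this
    exact h2.dvd_of_dvd_mul_left h1
  -- `s² ∈ ⟨x⟩`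
  have hssx : (s * s) * x = x * (s * s) := by
    have h1 : s * s * x * (s * s)⁻¹ = x := by
      calc s * s * x * (s * s)⁻¹ = s * (s * x * s⁻¹) * s⁻¹ := by group
        _ = s * x ^ (-1 : ℤ) * s⁻¹ := by rw [hsx, zpow_neg_one]
        _ = x := by rw [hinvpow, neg_neg, zpow_one]
    rwa [mul_inv_eq_iff_eq_mul] at h1
  have hss : mk x hssx ∈ center (XX x) := by
    rw [mem_center_iff]
    intro g
    obtain ⟨d, hd, rfl⟩ := exists_mk g
    obtain ⟨i, hi⟩ := hact d hd
    have h1 : (s * s) * d * (s * s)⁻¹ = d := by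
      calc (s * s) * d * (s * s)⁻¹ = s * (s * d * s⁻¹) * s⁻¹ := by group
        _ = s * (d * x ^ i) * s⁻¹ := by rw [hi]
        _ = (s * d * s⁻¹) * (s * x ^ i * s⁻¹) := by group
        _ = d * x ^ i * x ^ (-i) := by rw [hi, hinvpow]
        _ = d := by rw [mul_assoc, ← zpow_add, add_neg_cancel, zpow_zero, mul_one]
    have h2 : (s * s) * d = d * (s * s) := by rwa [mul_inv_eq_iff_eq_mul] at h1
    have h3 : d * (s * s) * x = x * (d * (s * s)) := by rw [mul_assoc, hssx, ← mul_assoc, hd, mul_assoc]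
    have h4 : (s * s) * d * x = x * ((s * s) * d) := by rw [h2]; exact h3
    rw [mk_mul hd hssx h3, mk_mul hssx hd h4]
    exact LThreeMB.mk_congr _ _ h2.symm
  rw [hcen, mem_bot, LThreeMB.mk_eq_one] at hss
  obtain ⟨i, hi⟩ := hss
  have hs2 : s * s = 1 := by
    rw [← hi]
    apply hodd
    rw [← hinvpow, hi]
    group
  have hs1 : s ≠ 1 := by
    intro h1
    rw [h1, one_mul, inv_one, mul_one] at hsx
    apply hx1
    have := hodd 1 (by rw [zpow_one, zpow_neg_one]; exact hsx)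
    rwa [zpow_one] at this
  refine ⟨s, hs2, hs1, hsx, ?_⟩
  -- the isomorphism
  let f : ↥(centralizer ({s} : Set G) ⊓ centralizer ({x} : Set G)) →* XX x :=
    (QuotientGroup.mk' (Zx x)).comp (Subgroup.inclusion inf_le_right)
  have hf : ∀ d, f d = mk x (mem_centralizer_singleton_iff.1 (mem_inf.1 d.2).2) := fun d => rfl
  refine ⟨MulEquiv.ofBijective f ⟨?_, ?_⟩⟩
  · rw [injective_iff_map_eq_one]
    intro d hd
    rw [hf, LThreeMB.mk_eq_one] at hd
    obtain ⟨j, hj⟩ := hd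
    have h1 : (d : G) * s = s * d := mem_centralizer_singleton_iff.1 (mem_inf.1 d.2).1
    apply Subtype.ext
    show (d : G) = 1
    rw [← hj]
    apply hodd
    rw [← hinvpow, hj, ← h1]
    group
  · intro g
    obtain ⟨d, hd, rfl⟩ := exists_mk g
    obtain ⟨i, hi⟩ := hact d hd
    obtain ⟨m, hm⟩ := hx
    -- `x ^ (2 j) = x ^ i`
    obtain ⟨j, hj⟩ : ∃ j : ℤ, x ^ i = x ^ (j + j) := by
      refine ⟨i * (m + 1), ?_⟩
      have h1 : i * ((m : ℤ) + 1) + i * (m + 1) = i + i * (orderOf x) := by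
        rw [hm]; push_cast; ring
      rw [h1, zpow_add, mul_comm i, zpow_mul, zpow_natCast, pow_orderOf_eq_one, one_zpow, mul_one]
    have hdj : (d * x ^ j) * x = x * (d * x ^ j) := by
      rw [mul_assoc, ← zpow_add_one, add_comm, zpow_one_add, ← mul_assoc, hd, mul_assoc]
    have hds : (d * x ^ j) * s = s * (d * x ^ j) := by
      have h1 : s * (d * x ^ j) * s⁻¹ = d * x ^ j := by
        calc s * (d * x ^ j) * s⁻¹ = (s * d * s⁻¹) * (s * x ^ j * s⁻¹) := by group
          _ = d * x ^ (j + j) * x ^ (-j) := by rw [hi, hinvpow, hj]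
          _ = d * x ^ j := by rw [mul_assoc, ← zpow_add]; congr 2; ring
      rw [mul_inv_eq_iff_eq_mul] at h1
      exact h1.symm
    refine ⟨⟨d * x ^ j, mem_inf.2 ⟨mem_centralizer_singleton_iff.2 hds, mem_centralizer_singleton_iff.2 hdj⟩⟩, ?_⟩
    rw [hf]
    exact ((mk_eq_mk hd hdj).2 ⟨j, rfl⟩).symm

end split

end Cfsg.Agent.H877.SK
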